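import Mathlib.CategoryTheory.Adjunction.Basic
import Mathlib.CategoryTheory.Yoneda

/-!
# Comparing right adjoints along a fully faithful functor

`ι : Q ⥤ D` fully faithful, `T ⊣ R` on `Q`, `T' ⊣ R'` on `D`, `e : T ⋙ ι ≅ ι ⋙ T'`.  There is a natural map
`ι (R q) ⟶ R' (ι q)`, which is an isomorphism as soon as `R' (ι q)` lies in the essential image of `ι`.
-/

set_option autoImplicit false

universe v₁ v₂ v₃ v₄ u₁ u₂ u₃ u₄

namespace Groth.Agent.Dual.H360.AdjTransfer

open CategoryTheory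

variable {Q : Type u₁} [Category.{v₁} Q] {D : Type u₂} [Category.{v₂} D]
  {Q' : Type u₃} [Category.{v₃} Q'] {D' : Type u₄} [Category.{v₄} D']
  (ι : Q ⥤ D) (ι' : Q' ⥤ D') {T : Q ⥤ Q'} {R : Q' ⥤ Q} (adj : T ⊣ R) {T' : D ⥤ D'} {R' : D' ⥤ D}
  (adj' : T' ⊣ R') (e : T ⋙ ι' ≅ ι ⋙ T')

/-- The comparison map `ι (R q) ⟶ R' (ι' q)`. -/
noncomputable def cmp (q : Q') : ι.obj (R.obj q) ⟶ R'.obj (ι'.obj q) :=
  adj'.homEquiv _ _ (e.inv.app (R.obj q) ≫ ι'.map (adj.counit.app q))

/-- `ι f ≫ cmp` is adjoint to `ι'` of the adjoint of `f`. -/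
lemma map_cmp {m : Q} {q : Q'} (f : m ⟶ R.obj q) :
    ι.map f ≫ cmp ι ι' adj adj' e q =
      adj'.homEquiv _ _ (e.inv.app m ≫ ι'.map ((adj.homEquiv m q).symm f)) := by
  have h := e.inv.naturality f
  dsimp only [Functor.comp_map] at h
  rw [cmp, ← adj'.homEquiv_naturality_left, reassoc_of% h, adj.homEquiv_counit, ι'.map_comp]

lemma cmp_naturality {q q' : Q'} (g : q ⟶ q') :
    ι.map (R.map g) ≫ cmp ι ι' adj adj' e q' =
      cmp ι ι' adj adj' e q ≫ R'.map (ι'.map g) := by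
  rw [map_cmp, cmp, ← adj'.homEquiv_naturality_right, Category.assoc, ← ι'.map_comp,
    adj.homEquiv_counit, adj.counit_naturality]

/-- The comparison map as a natural transformation. -/
noncomputable def cmpNat : R ⋙ ι ⟶ ι' ⋙ R' where
  app q := cmp ι ι' adj adj' e q
  naturality _ _ g := cmp_naturality ι ι' adj adj' e g

lemma bijective_cmp [ι'.Full] [ι'.Faithful] (m : Q) (q : Q') :
    Function.Bijective (fun f : m ⟶ R.obj q => ι.map f ≫ cmp ι ι' adj adj' e q) := by
  have h1 : Function.Bijective (fun f : m ⟶ R.obj q => (adj.homEquiv m q).symm f) :=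
    (adj.homEquiv m q).symm.bijective
  have h2 : Function.Bijective (fun f : T.obj m ⟶ q => ι'.map f) :=
    ⟨ι'.map_injective, ι'.map_surjective⟩
  have h3 : Function.Bijective (fun f : ι'.obj (T.obj m) ⟶ ι'.obj q => e.inv.app m ≫ f) :=
    ((e.app m).homFromEquiv (Z := ι'.obj q)).bijective
  have h4 : Function.Bijective
      (fun f : T'.obj (ι.obj m) ⟶ ι'.obj q => adj'.homEquiv _ _ f) :=
    (adj'.homEquiv _ _).bijective
  have h5 := h4.comp (h3.comp (h2.comp h1))
  convert h5 using 1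
  funext f
  exact map_cmp ι ι' adj adj' e f

theorem isIso_cmp [ι.Full] [ι.Faithful] [ι'.Full] [ι'.Faithful] (q : Q')
    (h : ι.essImage (R'.obj (ι'.obj q))) : IsIso (cmp ι ι' adj adj' e q) := by
  obtain ⟨p, ⟨i⟩⟩ := h
  obtain ⟨c, hc⟩ := ι.map_surjective (cmp ι ι' adj adj' e q ≫ i.inv)
  have hc' : IsIso c := by
    rw [isIso_iff_yoneda_map_bijective]
    intro m
    have h1 := bijective_cmp ι ι' adj adj' e m q
    have h2 : Function.Bijective (fun f : ι.obj m ⟶ R'.obj (ι'.obj q) => f ≫ i.inv) :=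
      (i.symm.homToEquiv (Z := ι.obj m)).bijective
    have h3 : Function.Bijective (fun f : m ⟶ p => ι.map f) := ⟨ι.map_injective, ι.map_surjective⟩
    have h4 := h2.comp h1
    have h5 : (fun f : ι.obj m ⟶ R'.obj (ι'.obj q) => f ≫ i.inv) ∘
        (fun f : m ⟶ R.obj q => ι.map f ≫ cmp ι ι' adj adj' e q) =
        (fun f : m ⟶ p => ι.map f) ∘ (fun f : m ⟶ R.obj q => f ≫ c) := by
      funext f
      simp only [Function.comp_apply, Category.assoc, Functor.map_comp, hc]
    rw [h5] at h4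
    exact (Function.Bijective.of_comp_iff' h3 _).1 h4
  have h6 : cmp ι ι' adj adj' e q = ι.map c ≫ i.hom := by
    rw [hc, Category.assoc, i.inv_hom_id, Category.comp_id]
  rw [h6]
  infer_instance

include adj adj' e in
/-- The comparison isomorphism, on a category mapping to the objects where it is invertible. -/
theorem nonempty_iso [ι.Full] [ι.Faithful] [ι'.Full] [ι'.Faithful] {C : Type*} [Category* C]
    (j : C ⥤ Q') (h : ∀ c : C, ι.essImage (R'.obj (ι'.obj (j.obj c)))) :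
    Nonempty (j ⋙ R ⋙ ι ≅ j ⋙ ι' ⋙ R') :=
  ⟨NatIso.ofComponents (fun c => @asIso _ _ _ _ (cmp ι ι' adj adj' e (j.obj c))
    (isIso_cmp ι ι' adj adj' e _ (h c))) (fun g => cmp_naturality ι ι' adj adj' e (j.map g))⟩

end Groth.Agent.Dual.H360.AdjTransfer
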