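import Groth.Agent.S1118
import Groth.Agent.S1054
import Groth.Agent.PerfC.AffPushD
import Groth.Agent.PerfA.CohZero
import Groth.Agent.PerfA.QCohD
import Groth.Agent.Fdesc.StructMod
import Mathlib.CategoryTheory.Adjunction.Restrict
import Groth.Prelude.Def_Dual3

/-!
# `Rf_* Lf^* = - ⊗ᴸ f_* O_Y` on `D_QCoh`

* `nonempty_rpushInD`: `Rf_* (M[0]) = (f_* M)[0]`, `f` affine, `M` quasi-coherent;
* `nonempty_pullPush`: for `f : Y ⟶ X` quasi-compact and quasi-separated and a complex `E` representing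
  `Rf_* O_Y`, the functors `K ↦ Rf_* Lf^* K` and `K ↦ K ⊗ᴸ E` are isomorphic on `D_QCoh(O_X)`;
* `pullPushQAdj`: `Lf^* ⊣ Rf_*` on `D_QCoh`.
-/

set_option autoImplicit false

universe u

open CategoryTheory CategoryTheory.Limits AlgebraicGeometry

attribute [local instance] HasDerivedCategory.standard

namespace Groth.Agent.Dual.H360.ProjAff

open Groth.Agent.PerfC.LpullTens Groth.Agent.PerfC.DTens Groth.Agent.Dcoh.DerSch

variable {X Y : Scheme.{u}}

/-- `inD` and the single complex. -/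
noncomputable def inDIso (M : Y.Modules) : DCoh.inD Y M ≅
    DerivedCategory.Q.obj ((HomologicalComplex.single Y.Modules (ComplexShape.up ℤ) 0).obj M) :=
  (DerivedCategory.singleFunctorIsoCompQ Y.Modules 0).app M

lemma isQCoh_single (M : Y.Modules) (hM : Coh.IsQCoh M) (n : ℤ) :
    Coh.IsQCoh (((HomologicalComplex.single Y.Modules (ComplexShape.up ℤ) 0).obj M).X n) := by
  by_cases h : n = 0
  · subst h
    exact (SheafOfModules.isQuasicoherent Y.ringCatSheaf).prop_of_iso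
      (HomologicalComplex.singleObjXSelf (ComplexShape.up ℤ) 0 M).symm hM
  · exact Groth.Agent.PerfA.CohZero.isQCoh_of_isZero
      (HomologicalComplex.isZero_single_obj_X _ _ _ _ h)

/-- `Rf_* (M[0]) ≅ (f_* M)[0]` for `f` affine and `M` quasi-coherent. -/
theorem nonempty_rpushInD (f : Y ⟶ X) [IsAffineHom f] [DCoh.HasRpush f] (M : Y.Modules)
    (hM : Coh.IsQCoh M) :
    Nonempty ((DCoh.Rpush f).obj (DCoh.inD Y M) ≅
      DCoh.inD X ((Scheme.Modules.pushforward f).obj M)) := by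
  have h := Groth.Agent.PerfC.AffPushD.isIso_rpushUnitQ f _ (isQCoh_single M hM)
  exact ⟨(DCoh.Rpush f).mapIso (inDIso M) ≪≫ (@asIso _ _ _ _ _ h).symm ≪≫
    DerivedCategory.Q.mapIso ((HomologicalComplex.singleMapHomologicalComplex
      (Scheme.Modules.pushforward f) (ComplexShape.up ℤ) 0).app M) ≪≫ (inDIso _).symm⟩

section PullPush

variable (f : Y ⟶ X) [QuasiCompact f] [QuasiSeparated f] [DCoh.HasRpush f] [DCoh.HasLpull f]

/-- `(Rf_* O) ⊗ᴸ K ≅ Rf_* Lf^* K`, natural in `K ∈ D_QCoh`. -/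
noncomputable def thetaIso (hO : DCoh.IsQCohD (DerivedCategory.Q.obj (unitCx Y))) :
    ObjectProperty.ι (DCoh.IsQCohD (X := X)) ⋙
      (LTX X).obj ((DCoh.Rpush f).obj (DerivedCategory.Q.obj (unitCx Y))) ≅
    ObjectProperty.ι (DCoh.IsQCohD (X := X)) ⋙
      DCoh.Lpull f ⋙ (LTX Y).obj (DerivedCategory.Q.obj (unitCx Y)) ⋙ DCoh.Rpush f :=
  haveI : ∀ K, IsIso ((Functor.whiskerLeft (ObjectProperty.ι (DCoh.IsQCohD (X := X)))
      (theta f (DerivedCategory.Q.obj (unitCx Y)))).app K) := fun K =>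
    Groth.Agent.S1118.isIso_theta_app f _ hO K.obj K.property
  haveI : IsIso (Functor.whiskerLeft (ObjectProperty.ι (DCoh.IsQCohD (X := X)))
      (theta f (DerivedCategory.Q.obj (unitCx Y)))) := NatIso.isIso_of_isIso_app _
  asIso (Functor.whiskerLeft (ObjectProperty.ι (DCoh.IsQCohD (X := X)))
      (theta f (DerivedCategory.Q.obj (unitCx Y))))

/-- `O ⊗ᴸ - ≅ id`. -/
noncomputable def unitIsoL (Y : Scheme.{u}) :
    (LTX Y).obj (DerivedCategory.Q.obj (unitCx Y)) ≅ 𝟭 (DCoh.D Y) :=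
  (symmIso Y).symm.app _ ≪≫ unitIso Y

/-- `E ⊗ᴸ - ≅ LTensorCx E`. -/
noncomputable def leftIso (E : CochainComplex X.Modules ℤ) [DCoh.HasLTensorCx E] :
    (LTX X).obj (DerivedCategory.Q.obj E) ≅ DCoh.LTensorCx E :=
  (symmIso X).symm.app _ ≪≫ LTXcx E

theorem isQCohD_unit (Y : Scheme.{u}) : DCoh.IsQCohD (DerivedCategory.Q.obj (unitCx Y)) :=
  Groth.Agent.PerfA.QCohD.isQCohD_Q_of_terms _ (isQCoh_single _
    (Groth.Agent.Fdesc.StructMod.isQCoh_structureModule Y))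

/-- **Projection formula** (unit case): `Rf_* Lf^* K ≅ K ⊗ᴸ E`, natural in `K ∈ D_QCoh(O_X)`, for a complex
`E` representing `Rf_* O_Y`. -/
theorem nonempty_pullPush (E : CochainComplex X.Modules ℤ)
    (hE : Nonempty (DCoh.toD X E ≅ (DCoh.Rpush f).obj (DCoh.inD Y (Coh.structureModule Y))))
    [DCoh.HasLTensorCx E] :
    Nonempty (ObjectProperty.ι (DCoh.IsQCohD (X := X)) ⋙ DCoh.Lpull f ⋙ DCoh.Rpush f ≅
      ObjectProperty.ι (DCoh.IsQCohD (X := X)) ⋙ DCoh.LTensorCx E) := by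
  obtain ⟨eE⟩ := hE
  exact ⟨Functor.isoWhiskerLeft _ (Functor.isoWhiskerLeft (DCoh.Lpull f)
      (Functor.isoWhiskerRight (unitIsoL Y).symm (DCoh.Rpush f))) ≪≫
    (thetaIso f (isQCohD_unit Y)).symm ≪≫
    Functor.isoWhiskerLeft _ ((LTX X).mapIso (((DCoh.Rpush f).mapIso (inDIso _)).symm ≪≫ eE.symm) ≪≫
      leftIso E)⟩

end PullPush

section Adj

variable (f : Y ⟶ X) [DCoh.HasLpull f]

/-- `Lf^*` preserves quasi-coherence. -/
theorem lpullPreserves : Dual3.LpullPreservesQCoh f :=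
  fun K hK => Groth.Agent.S1054.result f K hK

/-- `Lf^* ⊣ Rf_*` on `D_QCoh`. -/
noncomputable def pullPushQAdj [DCoh.HasRpush f] (hL : Dual3.LpullPreservesQCoh f) (hf : DCoh.RpushPreservesQCoh f) :
    Dual3.LpullQ f hL ⊣ DCoh.RpushQ f hf :=
  (Groth.Agent.Dcoh.DerPull.lpullAdj f).restrictFullyFaithful
    (ObjectProperty.fullyFaithfulι _) (ObjectProperty.fullyFaithfulι _)
    (Iso.refl _) (Iso.refl _)

end Adj

end Groth.Agent.Dual.H360.ProjAff
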